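import Cfsg.Agent.H243.EP.OwnNum
import Cfsg.Agent.H243.EP.Weyl
import Cfsg.Agent.H419.EP.Big
import Cfsg.Agent.H2.Ppd.Exc
import Cfsg.Agent.S2122
import Cfsg.Agent.S2123
import Cfsg.Agent.S2124
import Cfsg.Agent.S2125
import Cfsg.Agent.S2130

/-!
# S3499, VII13-EXC-big: the socles `F₄, E₆, E₇, E₈, ²E₆` in their characteristic, dimension at least 13 (helper243)

`own_f4`, `own_e6`, `own_e7`, `own_e8`, `own_2e6` : `Big A Γ S P`, `|Q| ≤ |A| ^ 4`, `socle P ≅ X(K)`, `char F = char K` : `False`.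
-/

set_option autoImplicit false
set_option linter.unusedSectionVars false
set_option linter.style.haveILetI false

namespace Cfsg.Agent.H243.EP

open Matrix CoxeterSystem Cfsg.Agent.ChevalleyStructure.CoxeterGeom Cfsg.Agent.Tits.Roots Cfsg.Agent.Tits.Core
  Cfsg.Agent.Tits.Exchange Cfsg.Agent.Nodes.Reps Cfsg.Agent.Nodes.BNOf Cfsg.Agent.Nodes.Bruhat
open Cfsg.Agent.H905.DC Cfsg.Agent.H915.LD Cfsg.Agent.KFacts.MulOdd.Inst
open Cfsg.Agent.H64.CrossChev (Nd nd isType_F4 isType_E6 isType_E7 isType_E8 parity_E7)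
open Cfsg.Agent.Nodes.RGDChev (IsType)
open Cfsg.Lie Cfsg.Agent.ChevalleyStructure Cfsg.Agent.ChevalleyStructure.Elts
  Cfsg.Agent.ChevalleyStructure.CoxeterGeomTypes Cfsg.Agent.KFacts.MulOdd.InstChev
open Cfsg.Agent.H419.EP
open Cfsg.Agent.H2.Ppd (exists_J diag_comm div_gcd_le three_mul_le)
open scoped MatrixGroups

section

variable {Q : Type} [Group Q] [Finite Q] {A : Subgroup Q} {Γ : Subgroup (MulAut Q)} {ι : Type} [Fintype ι]
    [DecidableEq ι] {F : Type} [Field F] [Fintype F] {S P : Subgroup (GL ι F)}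

/-- the exponent bound -/
theorem Big.expo (b : Big A Γ S P) (hUB : Nat.card Q ≤ Nat.card A ^ 4) {L : Type} [Group L] [Finite L]
    (e : socle P ≃* L) {p a k D s : ℕ} (hp : 2 ≤ p) (hF : Fintype.card F = p ^ a) (hk : 1 ≤ k)
    (hL : Nat.card (MulAut L) ≤ 2 ^ s * k * p ^ (D * k)) :
    a * (Fintype.card ι * (Fintype.card ι - 1) / 2) ≤ (4 * D + 4 * s + 7) * k := by
  refine EP.expo hp hk ((b.hasSoc' e).card_le.trans hL) hUB ?_
  rw [← hF]
  exact b.ord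

variable {p : ℕ} [hp : Fact p.Prime] [hcF : CharP F p] {K : Type} [Field K] [Fintype K] [hcK : CharP K p]
  (b : Big A Γ S P) (hUB : Nat.card Q ≤ Nat.card A ^ 4)
include hp hcF hcK b hUB

theorem own_chev {D : ChevalleyDatum} {l : ℕ} {M : CoxeterMatrix (Fin l)} (ht : IsType D l M)
    (hpar : parity D l = true) {c d : ℕ}
    (hidx : ∀ (_ : Finite M.Group) (J : Set (Fin l)) (i : Fin l), i ∉ J → c ≤ (WJ M.toCoxeterSystem J).index)
    (hcard : ∀ k, Fintype.card K = p ^ k → Nat.card (MulAut ↥(D.group K)) ≤ 2 ^ 1 * k * p ^ (d * k))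
    (hR : 2 * (4 * d + 4 * 1 + 7) < c * (c - 1))
    (e : socle P ≃* ↥(D.group K)) : False := by
  obtain ⟨a, -, hF⟩ := FiniteField.card F p
  obtain ⟨k, -, hK⟩ := FiniteField.card K p
  have hF' : Nat.card F = p ^ (a : ℕ) := by rw [Nat.card_eq_fintype_card, hF]
  have : Finite M.Group := Cfsg.Agent.Nodes.RGDChev.finite_W ht M.toCoxeterSystem
  obtain ⟨J, ⟨i, hi⟩, h2, -⟩ := exists_J (core_of_residual b.core)
    (Cfsg.Agent.Nodes.RGDChev.rgd (K := K) ht M.toCoxeterSystem p)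
    (Cfsg.Agent.Nodes.RGDChev.G1_eq_top ht M.toCoxeterSystem)
    (fun s hs t ht' => Subtype.ext (diag_comm ht.inList hs ht')) (E := fun _ => K) (nd ht hpar K) e hF'
    (f := fun _ => (k : ℕ)) (fun _ => hK)
  have h3 := h2 i hi
  have h4 := hidx this J i hi
  have h5 : 1 ≤ (k : ℕ) / Nat.gcd a k :=
    Nat.div_pos (Nat.le_of_dvd k.pos (Nat.gcd_dvd_right _ _)) (Nat.gcd_pos_of_pos_right _ k.pos)
  have h6 : (k : ℕ) ≤ a * (k / Nat.gcd a k) := by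
    calc (k : ℕ) = Nat.gcd a k * (k / Nat.gcd a k) := (Nat.mul_div_cancel' (Nat.gcd_dvd_right _ _)).symm
      _ ≤ _ := Nat.mul_le_mul_right _ (Nat.gcd_le_left _ a.pos)
  exact fin_num (n := Fintype.card ι) a.pos h5 h6 ((Nat.mul_le_mul_right _ h4).trans h3)
    (Big.expo b hUB e hp.out.two_le hF k.pos (hcard k hK)) hR

theorem own_f4' (e : socle P ≃* ↥(Cfsg.Lie.chevF4.group K)) : False := by
  refine own_chev (p := p) b hUB isType_F4 parity_F4 (c := 24) (d := 52)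
    (fun _ J i hi => Cfsg.Agent.H2.Ppd.index_F4 _ hi) (fun k hk => ?_) (by norm_num) e
  refine card_aut_le.trans ?_
  rw [S2122.result p k hk, S1062.result rfl, hk]
  have h1 : Nat.gcd 2 p ≤ 2 := Nat.gcd_le_left _ (by norm_num)
  calc Nat.gcd 2 p * k * ((p ^ k) ^ 24 * ((p ^ k) ^ 2 - 1) * ((p ^ k) ^ 6 - 1) * ((p ^ k) ^ 8 - 1) * ((p ^ k) ^ 12 - 1))
      ≤ 2 * k * ((p ^ k) ^ 24 * (p ^ k) ^ 2 * (p ^ k) ^ 6 * (p ^ k) ^ 8 * (p ^ k) ^ 12) := by
        gcongr <;> exact Nat.sub_le _ _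
    _ = 2 ^ 1 * k * p ^ (52 * k) := by rw [mul_comm 52 k, pow_mul]; ring

theorem own_e6' (e : socle P ≃* ↥(Cfsg.Lie.chevE6.group K)) : False := by
  refine own_chev (p := p) b hUB isType_E6 parity_E6 (c := 27) (d := 78)
    (fun _ J i hi => index_E6 _ hi) (fun k hk => ?_) (by norm_num) e
  refine card_aut_le.trans ?_
  rw [S2123.result p k hk]
  have h1 : 2 * Nat.gcd 3 (p ^ k - 1) * k * Nat.card ↥(Cfsg.Lie.chevE6.group K) =
      2 * k * (Nat.gcd 3 (Fintype.card K - 1) * Nat.card ↥(Cfsg.Lie.chevE6.group K)) := by rw [hk]; ring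
  rw [h1, S1063.result rfl, hk]
  calc 2 * k * ((p ^ k) ^ 36 * ((p ^ k) ^ 2 - 1) * ((p ^ k) ^ 5 - 1) * ((p ^ k) ^ 6 - 1) * ((p ^ k) ^ 8 - 1) *
        ((p ^ k) ^ 9 - 1) * ((p ^ k) ^ 12 - 1))
      ≤ 2 * k * ((p ^ k) ^ 36 * (p ^ k) ^ 2 * (p ^ k) ^ 5 * (p ^ k) ^ 6 * (p ^ k) ^ 8 * (p ^ k) ^ 9 *
        (p ^ k) ^ 12) := by
        gcongr <;> exact Nat.sub_le _ _
    _ = 2 ^ 1 * k * p ^ (78 * k) := by rw [mul_comm 78 k, pow_mul]; ring

theorem own_e7' (e : socle P ≃* ↥(Cfsg.Lie.chevE7.group K)) : False := by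
  refine own_chev (p := p) b hUB isType_E7 parity_E7 (c := 36) (d := 133)
    (fun _ J i hi => Cfsg.Agent.H2.Ppd.index_E7 _ hi) (fun k hk => ?_) (by norm_num) e
  refine card_aut_le.trans ?_
  rw [S2124.result p k hk]
  have h1 : Nat.gcd 2 (p ^ k - 1) * k * Nat.card ↥(Cfsg.Lie.chevE7.group K) =
      k * (Nat.gcd 2 (Fintype.card K - 1) * Nat.card ↥(Cfsg.Lie.chevE7.group K)) := by rw [hk]; ring
  rw [h1, S1064.result rfl, hk]
  calc k * ((p ^ k) ^ 63 * ((p ^ k) ^ 2 - 1) * ((p ^ k) ^ 6 - 1) * ((p ^ k) ^ 8 - 1) * ((p ^ k) ^ 10 - 1) *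
        ((p ^ k) ^ 12 - 1) * ((p ^ k) ^ 14 - 1) * ((p ^ k) ^ 18 - 1))
      ≤ (2 * k) * ((p ^ k) ^ 63 * (p ^ k) ^ 2 * (p ^ k) ^ 6 * (p ^ k) ^ 8 * (p ^ k) ^ 10 *
        (p ^ k) ^ 12 * (p ^ k) ^ 14 * (p ^ k) ^ 18) := by
        gcongr
        · omega
        all_goals exact Nat.sub_le _ _
    _ = 2 ^ 1 * k * p ^ (133 * k) := by rw [mul_comm 133 k, pow_mul]; ring

theorem own_e8' (e : socle P ≃* ↥(Cfsg.Lie.chevE8.group K)) : False := by
  refine own_chev (p := p) b hUB isType_E8 parity_E8 (c := 60) (d := 248)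
    (fun _ J i hi => Cfsg.Agent.H2.Ppd.index_E8 _ hi) (fun k hk => ?_) (by norm_num) e
  refine card_aut_le.trans ?_
  rw [S2125.result p k hk, S1065.result rfl, hk]
  calc k * ((p ^ k) ^ 120 * ((p ^ k) ^ 2 - 1) * ((p ^ k) ^ 8 - 1) * ((p ^ k) ^ 12 - 1) * ((p ^ k) ^ 14 - 1) *
        ((p ^ k) ^ 18 - 1) * ((p ^ k) ^ 20 - 1) * ((p ^ k) ^ 24 - 1) * ((p ^ k) ^ 30 - 1))
      ≤ (2 * k) * ((p ^ k) ^ 120 * (p ^ k) ^ 2 * (p ^ k) ^ 8 * (p ^ k) ^ 12 * (p ^ k) ^ 14 *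
        (p ^ k) ^ 18 * (p ^ k) ^ 20 * (p ^ k) ^ 24 * (p ^ k) ^ 30) := by
        gcongr
        · omega
        all_goals exact Nat.sub_le _ _
    _ = 2 ^ 1 * k * p ^ (248 * k) := by rw [mul_comm 248 k, pow_mul]; ring

theorem own_2e6' {q₀ : ℕ} (hq : IsPrimePow q₀) (hK : Fintype.card K = q₀ ^ 2)
    (e : socle P ≃* ↥(Cfsg.Lie.twistedE6 K q₀)) : False := by
  classical
  obtain ⟨a, -, hF⟩ := FiniteField.card F p
  obtain ⟨b', -, hK'⟩ := FiniteField.card K p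
  have hF' : Nat.card F = p ^ (a : ℕ) := by rw [Nat.card_eq_fintype_card, hF]
  -- `q₀ = p ^ k`
  obtain ⟨k, hk, hqb⟩ : ∃ k, 0 < k ∧ q₀ = p ^ k := by
    obtain ⟨s, c, hs, hc, rfl⟩ := (isPrimePow_nat_iff _).1 hq
    have h1 : s = p := by
      have h2 : s ∣ p ^ (b' : ℕ) := by
        rw [← hK', hK]
        exact dvd_pow (dvd_pow_self s hc.ne') (by norm_num)
      exact (Nat.prime_dvd_prime_iff_eq hs hp.out).1 (hs.dvd_of_dvd_pow h2)
    exact ⟨c, hc, by rw [h1]⟩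
  have hq1 := hq.one_lt
  have hb2 : 0 < k * 2 := by omega
  -- the order of `Aut`
  have haut : Nat.card (MulAut ↥(Cfsg.Lie.twistedE6 K q₀)) ≤ 2 ^ 3 * k * p ^ (78 * k) := by
    refine card_aut_le.trans ?_
    have h0 : Nat.card (Cfsg.Out ↥(Cfsg.Lie.twistedE6 K q₀)) = 2 * Nat.gcd 3 (q₀ + 1) * k := by
      subst hqb
      exact S2130.result p k (by rw [hK, ← pow_mul, mul_comm]) hk
    rw [h0]
    have h1 : 2 * Nat.gcd 3 (q₀ + 1) * k * Nat.card ↥(Cfsg.Lie.twistedE6 K q₀) =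
        2 * k * (Nat.gcd 3 (q₀ + 1) * Nat.card ↥(Cfsg.Lie.twistedE6 K q₀)) := by ring
    rw [h1, S1066.result hq hK]
    calc 2 * k * (q₀ ^ 36 * (q₀ ^ 2 - 1) * (q₀ ^ 5 + 1) * (q₀ ^ 6 - 1) * (q₀ ^ 8 - 1) * (q₀ ^ 9 + 1) *
          (q₀ ^ 12 - 1)) ≤ 2 * k * (4 * q₀ ^ 78) := Nat.mul_le_mul_left _ (e6tw_le hq1)
      _ = 2 ^ 3 * k * p ^ (78 * k) := by rw [hqb, mul_comm 78 k, pow_mul]; ring
  have hexp := Big.expo b hUB e hp.out.two_le hF hk haut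
  -- the data
  obtain ⟨φ, hφ, hqq⟩ := TwE6Basic.exists_frob hq hK
  let _ : ∀ i : Fin 4, Fintype (Cfsg.Agent.Nodes.RGDFoldSL.Fx φ ((Nodes.RGDTwNode.E6.rest i).length + 1)) :=
    fun i => Fintype.ofFinite _
  have hch : ∀ i : Fin 4, CharP (Cfsg.Agent.Nodes.RGDFoldSL.Fx φ ((Nodes.RGDTwNode.E6.rest i).length + 1)) p :=
    fun i => (RingHom.charP_iff (Cfsg.Agent.Nodes.RGDFoldSL.Fx φ _).subtype
      (Cfsg.Agent.Nodes.RGDFoldSL.Fx φ _).subtype_injective p).2 inferInstance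
  have hN := fun i : Fin 4 =>
    Cfsg.Agent.H59.CrossTw.nd_fold (Nodes.RGDTwE6.foldGrp hφ hqq) (Nodes.RGDTwNode.E6.nodeOK i) (φ := φ)
      (fun s hs t => by rw [Nodes.RGDTwNode.E6.eps_one i s hs, Int.cast_one, one_mul])
      (Cfsg.Agent.KFacts.MulOdd.InstTw.parityTw_spec Cfsg.Agent.KFacts.MulOdd.InstTw.parity_E6 i).choose_spec.1
      (Cfsg.Agent.KFacts.MulOdd.InstTw.parityTw_spec Cfsg.Agent.KFacts.MulOdd.InstTw.parity_E6 i).choose_spec.2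
  have hW : Finite CoxeterMatrix.F₄.Group :=
    Cfsg.Agent.Nodes.RGDFold.finite_W (hp := isType_E6) CoxeterMatrix.F₄.toCoxeterSystem Nodes.RGDTwE6.isCartan
      Nodes.RGDTwE6.foldData
  have hcard : ∀ i : Fin 4, Fintype.card (Cfsg.Agent.Nodes.RGDFoldSL.Fx φ ((Nodes.RGDTwNode.E6.rest i).length + 1)) =
      p ^ (![k, k, k * 2, k * 2] i) := by
    have e1 : Nat.card (Cfsg.Agent.Nodes.RGDFoldSL.Fx φ 1) = q₀ := by
      have h2 := Cfsg.Agent.H59.CrossTw.card_Fx_one hq1 hK hφ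
      have h3 : 0 < Nat.card (Cfsg.Agent.Nodes.RGDFoldSL.Fx φ 1) := Nat.card_pos
      omega
    have e2 := Cfsg.Agent.H59.CrossTw.card_Fx_eq hK hφ
    intro i
    rw [← Nat.card_eq_fintype_card]
    fin_cases i
    · exact e1.trans hqb
    · exact e1.trans hqb
    · refine e2.trans ?_
      rw [hqb, ← pow_mul]
      rfl
    · refine e2.trans ?_
      rw [hqb, ← pow_mul]
      rfl
  obtain ⟨J, ⟨i, hi⟩, h2, h3⟩ := exists_J (core_of_residual b.core)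
    (Nodes.RGDFold.rgd CoxeterMatrix.F₄.toCoxeterSystem Nodes.RGDTwE6.isCartan Nodes.RGDTwE6.foldData
      (Nodes.RGDTwE6.foldGrp hφ hqq) p)
    (Nodes.RGDFold.G1_eq_top CoxeterMatrix.F₄.toCoxeterSystem Nodes.RGDTwE6.isCartan Nodes.RGDTwE6.foldData
      (Nodes.RGDTwE6.foldGrp hφ hqq) p)
    (fun s hs t ht' => Subtype.ext (diag_comm isType_E6.inList (Subgroup.mem_subgroupOf.1 hs).1
      (Subgroup.mem_subgroupOf.1 ht').1)) hN e hF' hcard
  -- `e_S` and `e_L`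
  have hS : 1 ≤ k * 2 / Nat.gcd a (k * 2) :=
    Nat.div_pos (Nat.le_of_dvd hb2 (Nat.gcd_dvd_right _ _)) (Nat.gcd_pos_of_pos_right _ hb2)
  have hL : 1 ≤ k / Nat.gcd a k :=
    Nat.div_pos (Nat.le_of_dvd hk (Nat.gcd_dvd_right _ _)) (Nat.gcd_pos_of_pos_right _ hk)
  have hSL : k * 2 / Nat.gcd a (k * 2) ≤ 2 * (k / Nat.gcd a k) := div_gcd_le hk
  have haS : 2 * k ≤ a * (k * 2 / Nat.gcd a (k * 2)) := by
    calc 2 * k = Nat.gcd a (k * 2) * (k * 2 / Nat.gcd a (k * 2)) := by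
          rw [Nat.mul_div_cancel' (Nat.gcd_dvd_right _ _), mul_comm]
      _ ≤ _ := Nat.mul_le_mul_right _ (Nat.gcd_le_left _ a.pos)
  have g2 := h2 2
  have g3 := h2 3
  have g1 := h2 1
  change 2 ∉ J → _ * 2 ^ (k * 2 / Nat.gcd a (k * 2)) ≤ _ at g2
  change 3 ∉ J → _ * 2 ^ (k * 2 / Nat.gcd a (k * 2)) ≤ _ at g3
  change 1 ∉ J → _ * 2 ^ (k / Nat.gcd a k) ≤ _ at g1
  have g0 := fun h0 : (0 : Fin 4) ∉ J => fun hJ => h3 0 h0 hJ 3 (H2.Ppd.LF.filter fun v => decide (0 < v 3))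
    (H2.Ppd.LF.filter fun v => decide (v 3 = 0))
  change ∀ h0 : (0 : Fin 4) ∉ J, _ → _ → _ → _ → _ → _ → _ →
    _ * 2 ^ (k * 2 / Nat.gcd a (k * 2)) + _ ≤ _ at g0
  set S := k * 2 / Nat.gcd a (k * 2) with hSdef
  set T := k / Nat.gcd a k with hTdef
  have hSp := two_mul_le_two_pow hS
  have hTp := two_mul_le_two_pow hL
  refine fin_num_tw (n := Fintype.card ι) (a := a) (b := k) (S := S) (R := 4 * 78 + 4 * 3 + 7) a.pos hS haS ?_ hexp
    (by norm_num)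
  by_cases h20 : (2 : Fin 4) ∈ J
  swap
  · left
    have h9 := g2 h20
    have h10 := Nat.mul_le_mul (H2.Ppd.index_F4 CoxeterMatrix.F₄.toCoxeterSystem h20) hSp
    omega
  by_cases h30 : (3 : Fin 4) ∈ J
  swap
  · left
    have h9 := g3 h30
    have h10 := Nat.mul_le_mul (H2.Ppd.index_F4 CoxeterMatrix.F₄.toCoxeterSystem h30) hSp
    omega
  by_cases h10 : (1 : Fin 4) ∈ J
  swap
  · left
    have h9 := g1 h10
    have h10 := Nat.mul_le_mul (H2.Ppd.index_F4' CoxeterMatrix.F₄.toCoxeterSystem h10) hTp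
    omega
  have h00 : (0 : Fin 4) ∉ J := by
    intro h0
    apply hi
    fin_cases i
    · exact h0
    · exact h10
    · exact h20
    · exact h30
  obtain ⟨o1, o2⟩ := H2.Ppd.exists_of_chn CoxeterMatrix.F₄.toCoxeterSystem Nodes.RGDTwE6.isCartan H2.Ppd.chn_LF
  have h9 := g0 h00 (by
      intro i hi
      fin_cases i
      · rfl
      · exact absurd h10 hi
      · exact absurd h20 hi
      · exact absurd h30 hi)
    (fun v hv => of_decide_eq_true (List.mem_filter.1 hv).2)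
    (fun v hv => of_decide_eq_true (List.mem_filter.1 hv).2)
    (o2.filter _) (o2.filter _) (fun v hv => o1 v (List.mem_filter.1 hv).1) (fun v hv => o1 v (List.mem_filter.1 hv).1)
  rw [H2.Ppd.LF_pos, H2.Ppd.LF_zero] at h9
  rcases Nat.lt_or_ge S 2 with h12 | h12
  · left
    have h13 : S = 1 := by omega
    rw [h13] at h9 ⊢
    omega
  · right
    have h14 := three_mul_le h12
    omega

end

/-! ### with `ringChar` -/

section ring

variable {Q : Type} [Group Q] [Finite Q] {A : Subgroup Q} {Γ : Subgroup (MulAut Q)} {ι : Type} [Fintype ι]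
    [DecidableEq ι] {F : Type} [Field F] [Fintype F] {S P : Subgroup (GL ι F)}

theorem exists_p {F K : Type} [Field F] [Fintype F] [Field K] [Fintype K] (hc : ringChar F = ringChar K) :
    ∃ (p : ℕ), p.Prime ∧ CharP F p ∧ CharP K p := by
  refine ⟨ringChar F, CharP.char_is_prime F _, inferInstance, ?_⟩
  rw [hc]
  infer_instance

/-- **Own characteristic, the large exceptional groups.** -/
theorem own_exc_big (b : Big A Γ S P) (hUB : Nat.card Q ≤ Nat.card A ^ 4) (K : Type) [Field K] [Fintype K]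
    (hc : ringChar F = ringChar K)
    (h : Nonempty (socle P ≃* ↥(Cfsg.Lie.chevF4.group K)) ∨ Nonempty (socle P ≃* ↥(Cfsg.Lie.chevE6.group K)) ∨
      Nonempty (socle P ≃* ↥(Cfsg.Lie.chevE7.group K)) ∨ Nonempty (socle P ≃* ↥(Cfsg.Lie.chevE8.group K)) ∨
      ∃ q : ℕ, IsPrimePow q ∧ Fintype.card K = q ^ 2 ∧ Nonempty (socle P ≃* ↥(Cfsg.Lie.twistedE6 K q))) : False := by
  obtain ⟨p, hp, h1, h2⟩ := exists_p hc
  have : Fact p.Prime := ⟨hp⟩
  rcases h with ⟨⟨e⟩⟩ | ⟨⟨e⟩⟩ | ⟨⟨e⟩⟩ | ⟨⟨e⟩⟩ | ⟨q, hq, hK, ⟨e⟩⟩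
  · exact own_f4' (p := p) b hUB e
  · exact own_e6' (p := p) b hUB e
  · exact own_e7' (p := p) b hUB e
  · exact own_e8' (p := p) b hUB e
  · exact own_2e6' (p := p) b hUB hq hK e

end ring

end Cfsg.Agent.H243.EP
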