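import Mathlib.Tactic
import Mathlib.GroupTheory.QuotientGroup.Basic
import Cfsg.Prelude.Def_KGroupFacts

/-!
# S3499, VII13-EXC: numbers (helper243)
-/

set_option autoImplicit false

namespace Cfsg.Agent.H243.EP

/-- `|Aut L| ≤ |Out L| |L|` -/
theorem card_aut_le {L : Type*} [Group L] [Finite L] :
    Nat.card (MulAut L) ≤ Nat.card (Cfsg.Out L) * Nat.card L := by
  rw [Subgroup.card_eq_card_quotient_mul_card_subgroup (Cfsg.Inn L)]
  exact Nat.mul_le_mul_left _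
    (Nat.card_le_card_of_surjective _ (MonoidHom.rangeRestrict_surjective (MulAut.conj (G := L))))

/-- the exponents of `p` in `|F|^N ≤ 8 |Q| ≤ 8 |A|^4` -/
theorem expo {p a b N D s x y : ℕ} (hp : 2 ≤ p) (hb : 1 ≤ b) (hx : x ≤ 2 ^ s * b * p ^ (D * b))
    (hy : y ≤ x ^ 4) (h : (p ^ a) ^ N ≤ 8 * y) : a * N ≤ (4 * D + 4 * s + 7) * b := by
  have h1 : x ≤ p ^ (s + b + D * b) := by
    refine hx.trans ?_
    rw [pow_add, pow_add]
    refine Nat.mul_le_mul_right _ (Nat.mul_le_mul (Nat.pow_le_pow_left hp _) ?_)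
    exact (Nat.lt_two_pow_self).le.trans (Nat.pow_le_pow_left hp _)
  have h2 : (p ^ a) ^ N ≤ p ^ (3 + (s + b + D * b) * 4) := by
    refine h.trans ?_
    rw [pow_add, pow_mul]
    refine Nat.mul_le_mul ?_ (hy.trans (Nat.pow_le_pow_left h1 4))
    calc 8 = 2 ^ 3 := by norm_num
      _ ≤ _ := Nat.pow_le_pow_left hp 3
  rw [← pow_mul] at h2
  have h3 := (Nat.pow_le_pow_iff_right (by omega : 1 < p)).1 h2
  have h4 : (4 * D + 4 * s + 7) * b = 3 * b + 4 * s * b + (b + D * b) * 4 := by ring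
  have h5 : 4 * s ≤ 4 * s * b := Nat.le_mul_of_pos_right _ hb
  have h6 : 3 + (s + b + D * b) * 4 = 3 + 4 * s + (b + D * b) * 4 := by ring
  omega

theorem two_mul_le_two_pow {j : ℕ} (hj : 1 ≤ j) : 2 * j ≤ 2 ^ j := by
  induction j, hj using Nat.le_induction with
  | base => norm_num
  | succ j hj ih =>
    rw [pow_succ]
    omega

/-- `c j ≤ n` gives `j c (c - 1) ≤ n (n - 1)` -/
theorem dim_sq {c j n : ℕ} (hj : 1 ≤ j) (h : c * j ≤ n) : j * (c * (c - 1)) ≤ n * (n - 1) := by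
  rcases Nat.eq_zero_or_pos c with rfl | hc
  · simp
  have h1 : c ≤ c * j := Nat.le_mul_of_pos_right _ hj
  calc j * (c * (c - 1)) = (c * j) * (c - 1) := by ring
    _ ≤ n * (n - 1) := Nat.mul_le_mul h (by omega)

/-- the contradiction in the untwisted case: `b ≤ a j`, `c 2^j ≤ 2 n` -/
theorem fin_num {n a b j c R : ℕ} (ha : 1 ≤ a) (hj : 1 ≤ j) (hb : b ≤ a * j) (hc : c * 2 ^ j ≤ 2 * n)
    (h : a * (n * (n - 1) / 2) ≤ R * b) (hR : 2 * R < c * (c - 1)) : False := by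
  have hdiv : n * (n - 1) / 2 * 2 = n * (n - 1) := Nat.div_mul_cancel (Nat.even_mul_pred_self _).two_dvd
  have h1 : c * j ≤ n := by
    have h2 := Nat.mul_le_mul_left c (two_mul_le_two_pow hj)
    have h3 : c * (2 * j) = 2 * (c * j) := by ring
    omega
  have h2 := dim_sq hj h1
  have h3 : a * (n * (n - 1) / 2) ≤ a * (R * j) := by
    calc a * (n * (n - 1) / 2) ≤ R * b := h
      _ ≤ R * (a * j) := Nat.mul_le_mul_left _ hb
      _ = a * (R * j) := by ring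
  have h4 := Nat.le_of_mul_le_mul_left h3 ha
  have h5 : n * (n - 1) ≤ j * (2 * R) := by
    rw [← hdiv]
    calc n * (n - 1) / 2 * 2 ≤ R * j * 2 := Nat.mul_le_mul_right _ h4
      _ = j * (2 * R) := by ring
  have h6 := Nat.le_of_mul_le_mul_left (h2.trans h5) hj
  omega

/-- the contradiction in the twisted case: `2 b ≤ a S`, `24 S ≤ n` or (`S ≥ 2` and `18 S ≤ n`) -/
theorem fin_num_tw {n a b S R : ℕ} (ha : 1 ≤ a) (hS : 1 ≤ S) (hb : 2 * b ≤ a * S)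
    (hc : 24 * S ≤ n ∨ (2 ≤ S ∧ 18 * S ≤ n))
    (h : a * (n * (n - 1) / 2) ≤ R * b) (hR : R < 552) : False := by
  have hdiv : n * (n - 1) / 2 * 2 = n * (n - 1) := Nat.div_mul_cancel (Nat.even_mul_pred_self _).two_dvd
  have h3 : a * (n * (n - 1)) ≤ a * (R * S) := by
    calc a * (n * (n - 1)) = (a * (n * (n - 1) / 2)) * 2 := by rw [mul_assoc, hdiv]
      _ ≤ R * b * 2 := Nat.mul_le_mul_right _ h
      _ = R * (2 * b) := by ring
      _ ≤ R * (a * S) := Nat.mul_le_mul_left _ hb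
      _ = a * (R * S) := by ring
  have h4 := Nat.le_of_mul_le_mul_left h3 ha
  have h5 : R * S ≤ 551 * S := Nat.mul_le_mul_right _ (by omega)
  rcases hc with hc | ⟨h2, hc⟩
  · have h6 := dim_sq hS hc
    have h7 : S * (24 * (24 - 1)) = 552 * S := by ring
    omega
  · have h6 : 18 * S * 35 ≤ n * (n - 1) := Nat.mul_le_mul hc (by omega)
    omega

theorem e6tw_le {q : ℕ} (hq : 2 ≤ q) :
    q ^ 36 * (q ^ 2 - 1) * (q ^ 5 + 1) * (q ^ 6 - 1) * (q ^ 8 - 1) * (q ^ 9 + 1) * (q ^ 12 - 1) ≤ 4 * q ^ 78 := by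
  have h1 : q ^ 5 + 1 ≤ 2 * q ^ 5 := by
    have := Nat.one_le_pow 5 q (by omega)
    omega
  have h2 : q ^ 9 + 1 ≤ 2 * q ^ 9 := by
    have := Nat.one_le_pow 9 q (by omega)
    omega
  calc q ^ 36 * (q ^ 2 - 1) * (q ^ 5 + 1) * (q ^ 6 - 1) * (q ^ 8 - 1) * (q ^ 9 + 1) * (q ^ 12 - 1)
      ≤ q ^ 36 * q ^ 2 * (2 * q ^ 5) * q ^ 6 * q ^ 8 * (2 * q ^ 9) * q ^ 12 := by
        gcongr <;> exact Nat.sub_le _ _
    _ = 4 * q ^ 78 := by ring

end Cfsg.Agent.H243.EP
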